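import Cfsg.Agent.H821.K547.Defs
import Cfsg.Agent.TypeU3Sz.Main
import Cfsg.Agent.Classification.PSLTwoEvenSylow
import Cfsg.Agent.H277.CS.PslSub

/-!
# S4547: `D3` for the groups of rank one in characteristic two (helper174, task 5041)

* `D3_psl2` : `PSL₂(q)`, `q ≥ 8` even; `D3_sz` : `Sz(q)`; `D3_psu3` : `PSU₃(q)`, `q ≥ 4` even;
* `xcond_psl24`, `xcond_psl32` : `XCond` for `PSL₂(4)`, `PSL₃(2)`.
-/

set_option autoImplicit false
set_option linter.unusedSectionVars false

namespace Cfsg.Agent.H174.K547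

open Cfsg Cfsg.Agent.H821.K547 Matrix

universe u v

theorem Rk.congr {n : ℕ} {P : Type u} {Q : Type v} [Group P] [Group Q] (e : P ≃* Q) (h : Rk n Q) : Rk n P := by
  obtain ⟨f, hf⟩ := h
  exact ⟨f.comp e.toMonoidHom, hf.comp e.surjective⟩

/-- a homomorphism onto an elementary abelian group of order at least eight -/
theorem rk_of_hom {P : Type u} [Group P] {A : Type v} [AddCommGroup A] [Finite A] (f : P →* Multiplicative A)
    (hf : Function.Surjective f) (h2 : ∀ a : A, a + a = 0) (hA : 8 ≤ Nat.card A) : Rk 3 P := by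
  let _ : Module (ZMod 2) A := AddCommGroup.zmodModule (n := 2) fun a => by rw [two_nsmul]; exact h2 a
  have hfd : Module.Finite (ZMod 2) A := Module.Finite.of_finite
  have hcard : Nat.card A = 2 ^ Module.finrank (ZMod 2) A := by
    have := Module.natCard_eq_pow_finrank (K := ZMod 2) (V := A)
    rw [this, Nat.card_zmod]
  have hd : 3 ≤ Module.finrank (ZMod 2) A := by
    by_contra hlt
    have h3 : Module.finrank (ZMod 2) A ≤ 2 := by omega
    have h4 : Nat.card A ≤ 2 ^ 2 := by rw [hcard]; exact Nat.pow_le_pow_right (by norm_num) h3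
    omega
  let b := Module.finBasis (ZMod 2) A
  let g : A →+ (Fin 3 → ZMod 2) :=
    { toFun := fun a i => b.repr a (Fin.castLE hd i)
      map_zero' := by ext i; simp
      map_add' := fun x y => by ext i; simp }
  have hg : Function.Surjective g := by
    intro y
    refine ⟨b.repr.symm (Finsupp.equivFunOnFinite.symm fun j => if h : (j : ℕ) < 3 then y ⟨j, h⟩ else 0), ?_⟩
    funext i
    show b.repr (b.repr.symm _) (Fin.castLE hd i) = y i
    rw [LinearEquiv.apply_symm_apply]
    simp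
  exact ⟨(AddMonoidHom.toMultiplicative g).comp f, (hg : Function.Surjective (AddMonoidHom.toMultiplicative g)).comp hf⟩

theorem D3.congr {G : Type u} {H : Type v} [Group G] [Group H] [Finite G] (e : G ≃* H) (h : D3 H) : D3 G := by
  intro Q
  have hs : Function.Surjective e.toMonoidHom := e.surjective
  have : Finite H := Finite.of_equiv _ e.toEquiv
  have : Fact (Nat.Prime 2) := ⟨Nat.prime_two⟩
  have h1 := h (Q.mapSurjective hs)
  refine Rk.congr ?_ h1
  have hcoe : ((Q.mapSurjective hs : Sylow 2 H) : Subgroup H) = (Q : Subgroup G).map e.toMonoidHom :=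
    Sylow.coe_mapSurjective hs Q
  exact ((Q : Subgroup G).equivMapOfInjective e.toMonoidHom e.injective).trans (MulEquiv.subgroupCongr hcoe.symm)

/-- a Sylow 2-subgroup with the property -/
theorem D3_of_hom {G : Type u} [Group G] [Finite G] {U : Type v} [Group U] (f : U →* G) (hf : Function.Injective f)
    {n : ℕ} (hU : Nat.card U = 2 ^ n) (hidx : ¬ 2 ^ (n + 1) ∣ Nat.card G) (h : Rk 3 U) : D3 G := by
  have : Fact (Nat.Prime 2) := ⟨Nat.prime_two⟩
  let e : U ≃* f.range := MonoidHom.ofInjective hf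
  have hcard : Nat.card f.range = 2 ^ n := by rw [← Nat.card_congr e.toEquiv, hU]
  have hp : IsPGroup 2 f.range := IsPGroup.of_card hcard
  have hi : ¬ 2 ∣ f.range.index := by
    intro hd
    apply hidx
    rw [← Subgroup.card_mul_index f.range, hcard, pow_succ]
    exact Nat.mul_dvd_mul_left _ hd
  intro Q
  exact Rk.congr ((Sylow.equiv Q (hp.toSylow hi)).trans e.symm) h

/-! ### `PSL₂(q)` -/

theorem add_self {F : Type*} [Field F] [CharP F 2] (x : F) : x + x = 0 := CharTwo.add_self_eq_zero x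

theorem D3_psl2 {F : Type u} [Field F] [Fintype F] [CharP F 2] (h : 8 ≤ Fintype.card F) :
    D3 (ProjectiveSpecialLinearGroup (Fin 2) F) := by
  obtain ⟨n, _, hn⟩ := FiniteField.card F 2
  refine D3_of_hom (U := Multiplicative F) Classification.PSLTwoEvenSylow.uniP
    Classification.PSLTwoEvenSylow.uniP_injective (n := n) ?_ ?_ ?_
  · rw [← hn, ← Nat.card_eq_fintype_card]
    exact Nat.card_congr Multiplicative.toAdd
  · rw [Classification.PSLTwoEvenSylow.card_psl, hn, pow_succ]
    intro hd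
    have h1 := Nat.dvd_of_mul_dvd_mul_left (by positivity) hd
    have h2 : 2 ∣ (2 ^ (n : ℕ)) ^ 2 := by
      rw [← pow_mul]; exact dvd_pow_self 2 (by have := n.pos; positivity)
    have h3 : 1 ≤ (2 ^ (n : ℕ)) ^ 2 := Nat.one_le_iff_ne_zero.mpr (by positivity)
    omega
  · exact rk_of_hom (MonoidHom.id _) Function.surjective_id add_self (by rw [Nat.card_eq_fintype_card]; exact h)

/-! ### `Sz(q)` -/

open Cfsg.Agent.LieRecognition.SzMatrix in
theorem rk_unip {F : Type u} [Field F] [Fintype F] {m : ℕ} (hm : 1 ≤ m)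
    (hF : Fintype.card F = 2 ^ (2 * m + 1)) : Rk 3 ↥(good hF).unip := by
  have H := good hF
  have h2 : (2 : F) = 0 := two_eq_zero hF
  have hcF : Nat.card F = 2 ^ (2 * m + 1) := by rw [Nat.card_eq_fintype_card, hF]
  let f : ↥(good hF).unip →* Multiplicative F := MonoidHom.mk' (fun x => Multiplicative.ofAdd ((good hF).unipEquiv.symm x).1)
    (by
      intro x y
      obtain ⟨⟨a, b⟩, rfl⟩ := (good hF).unipEquiv.surjective x
      obtain ⟨⟨c, d⟩, rfl⟩ := (good hF).unipEquiv.surjective y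
      have e : (good hF).unipEquiv (a, b) * (good hF).unipEquiv (c, d) =
          (good hF).unipEquiv (a + c, b + d + a * (theta hF) c) := Subtype.ext ((good hF).u_mul a b c d)
      rw [e, Equiv.symm_apply_apply, Equiv.symm_apply_apply, Equiv.symm_apply_apply]
      rfl)
  refine rk_of_hom f (fun y => ⟨(good hF).unipEquiv (Multiplicative.toAdd y, 0), ?_⟩) (fun a => by
    rw [← two_mul, h2, zero_mul]) ?_
  · show Multiplicative.ofAdd ((good hF).unipEquiv.symm _).1 = y
    rw [Equiv.symm_apply_apply]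
    rfl
  · rw [hcF]
    calc 8 = 2 ^ 3 := by norm_num
      _ ≤ _ := Nat.pow_le_pow_right (by norm_num) (by omega)

theorem D3_sz {G : Type u} [Group G] (h : Lie.IsoSuzuki G) : D3 G := by
  obtain ⟨F, _, _, m, hm, hF, ⟨e⟩⟩ := h
  have hfin : Finite (Cfsg.Lie.Sz F (2 ^ (m + 1))) := inferInstance
  have : Finite G := Finite.of_equiv _ e.symm.toEquiv
  refine D3.congr e ?_
  obtain ⟨hcard, -⟩ := Cfsg.Agent.S1163.result hm hF
  have hcF : Nat.card F = 2 ^ (2 * m + 1) := by rw [Nat.card_eq_fintype_card, hF]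
  refine D3_of_hom (n := (2 * m + 1) * 2) (Cfsg.Agent.LieRecognition.SzMatrix.good hF).unip.subtype
    (Subgroup.subtype_injective _) ?_ ?_ (rk_unip hm hF)
  · rw [(Cfsg.Agent.LieRecognition.SzMatrix.good hF).card_unip, hcF, pow_mul]
  · rw [hcard, pow_succ, mul_assoc, pow_mul]
    intro hd
    have h1 := Nat.dvd_of_mul_dvd_mul_left (by positivity) hd
    rcases (Nat.Prime.dvd_mul Nat.prime_two).mp h1 with h | h
    · have h1 : 1 ≤ 2 ^ (2 * m + 1) := Nat.one_le_two_pow
      have h2 : 2 ∣ 2 ^ (2 * m + 1) := dvd_pow_self 2 (by omega)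
      omega
    · have h2 : 2 ∣ (2 ^ (2 * m + 1)) ^ 2 := dvd_pow (dvd_pow_self 2 (by omega)) (by omega)
      omega

/-! ### `PSU₃(q)` -/

open Cfsg.Agent.LieRecognition in
theorem D3_psu3 {F : Type u} [Field F] [Fintype F] [CharP F 2] {q : ℕ} (hF : Fintype.card F = q ^ 2) (hq : q ≠ 2) :
    D3 (PSU 3 F q) := by
  obtain ⟨k, hk, hkF⟩ := FiniteField.card F 2
  have hq2 : q ∣ 2 ^ (k : ℕ) := by rw [← hkF, hF]; exact dvd_pow_self q (by norm_num)
  obtain ⟨n, -, rfl⟩ := (Nat.dvd_prime_pow Nat.prime_two).1 hq2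
  have h1F : 1 < Fintype.card F := Fintype.one_lt_card
  have hn1 : 1 ≤ n := by
    by_contra h0
    have : n = 0 := by omega
    subst this
    rw [hF] at h1F
    norm_num at h1F
  have hn2 : 2 ≤ n := by
    by_contra h0
    have : n = 1 := by omega
    subst this
    exact hq (by norm_num)
  have hcF : Nat.card F = (2 ^ n) ^ 2 := by rw [Nat.card_eq_fintype_card, hF]
  obtain ⟨hch, σ, hσ, hs, -, h3⟩ := PSUThreeSylow.exists_heis_equiv F hn1 hcF
  have hq1 : 1 < 2 ^ n := Nat.one_lt_two_pow (by omega)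
  intro Q
  obtain ⟨e⟩ := h3 Q
  refine Rk.congr e.symm ?_
  let f : HermHeis.Heis σ →* Multiplicative F := MonoidHom.mk' (fun x => Multiplicative.ofAdd x.a) (fun x y => rfl)
  refine rk_of_hom f (fun y => ?_) add_self ?_
  · obtain ⟨x, hx⟩ := HermHeis.exists_heis_a (σ := σ) hq1 hs hcF (Multiplicative.toAdd y)
    exact ⟨x, by show Multiplicative.ofAdd x.a = y; rw [hx]; rfl⟩
  · rw [hcF, ← pow_mul]
    calc 8 = 2 ^ 3 := by norm_num
      _ ≤ _ := Nat.pow_le_pow_right (by norm_num) (by omega)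

/-! ### `XCond` -/

theorem xcond_of_card {G : Type u} [Group G] [Finite G] {x : G} {n : ℕ} (hx : orderOf x = 2 ^ n)
    (h : ¬ 2 ^ (n + 2) ∣ Nat.card G) : XCond G :=
  ⟨x, n, hx, fun hd => h (hd.trans (Subgroup.card_subgroup_dvd_card _))⟩

theorem XCond.congr {G : Type u} {H : Type v} [Group G] [Group H] (e : G ≃* H) (h : XCond H) : XCond G := by
  obtain ⟨x, n, hx, hn⟩ := h
  refine ⟨e.symm x, n, by rw [MulEquiv.orderOf_eq, hx], fun hd => hn ?_⟩
  have hmap : (Subgroup.normalizer (Subgroup.zpowers (e.symm x) : Set G)).map e.toMonoidHom =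
      Subgroup.normalizer (Subgroup.zpowers x : Set H) := by
    have e1 : (Subgroup.zpowers x : Set H) = (((Subgroup.zpowers (e.symm x)).map e.toMonoidHom : Subgroup H) : Set H) := by
      rw [MonoidHom.map_zpowers]
      simp
    rw [e1]
    exact (Subgroup.map_equiv_normalizer_eq _ e)
  rw [← hmap]
  have hc : Nat.card ↥((Subgroup.normalizer (Subgroup.zpowers (e.symm x) : Set G)).map e.toMonoidHom) =
      Nat.card ↥(Subgroup.normalizer (Subgroup.zpowers (e.symm x) : Set G)) :=
    Nat.card_congr (Subgroup.equivMapOfInjective _ _ e.injective).symm.toEquiv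
  rw [hc]
  exact hd

/-- `PSL₂(4)` -/
theorem xcond_psl24 {F : Type u} [Field F] [Fintype F] (hF : Fintype.card F = 4) :
    XCond (ProjectiveSpecialLinearGroup (Fin 2) F) := by
  have hcard : Nat.card (ProjectiveSpecialLinearGroup (Fin 2) F) = 60 := by
    have h := Cfsg.Agent.H277.CS.card_psl hF (n := 2) le_rfl
    norm_num [Finset.prod_range_succ] at h
    omega
  obtain ⟨x, hx⟩ := exists_prime_orderOf_dvd_card' (G := ProjectiveSpecialLinearGroup (Fin 2) F) 2 (by
    rw [hcard]; norm_num)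
  exact xcond_of_card (n := 1) (by rw [hx]; norm_num) (by rw [hcard]; norm_num)

/-- `PSL₃(2)` -/
theorem xcond_psl32 {F : Type u} [Field F] [Fintype F] (hF : Fintype.card F = 2) :
    XCond (ProjectiveSpecialLinearGroup (Fin 3) F) := by
  have hcard : Nat.card (ProjectiveSpecialLinearGroup (Fin 3) F) = 168 := by
    have h := Cfsg.Agent.H277.CS.card_psl hF (n := 3) (by norm_num)
    norm_num [Finset.prod_range_succ] at h
    omega
  have h2 : (2 : F) = 0 := by
    have := Nat.cast_card_eq_zero F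
    rw [hF] at this
    exact_mod_cast this
  let A : SpecialLinearGroup (Fin 3) F := ⟨!![1, 1, 0; 0, 1, 1; 0, 0, 1], by simp [Matrix.det_fin_three]⟩
  have hA2 : (A ^ 2 : SpecialLinearGroup (Fin 3) F).1 = !![1, 0, 1; 0, 1, 0; 0, 0, 1] := by
    have e : (A ^ 2 : SpecialLinearGroup (Fin 3) F).1 = A.1 * A.1 := by rw [pow_two]; rfl
    rw [e]
    have h11 : (1 : F) + 1 = 0 := by rw [← h2]; norm_num
    ext i j
    fin_cases i <;> fin_cases j <;> simp [A, Matrix.mul_apply, Fin.sum_univ_three, h11]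
  have hA4 : A ^ 4 = 1 := by
    apply Subtype.ext
    have e : (A ^ 4 : SpecialLinearGroup (Fin 3) F).1 = (A ^ 2).1 * (A ^ 2).1 := by
      have : A ^ 4 = A ^ 2 * A ^ 2 := by rw [← pow_add]
      rw [this]; rfl
    rw [e, hA2]
    have h11 : (1 : F) + 1 = 0 := by rw [← h2]; norm_num
    ext i j
    fin_cases i <;> fin_cases j <;> simp [Matrix.mul_apply, Fin.sum_univ_three, h11]
  let x : ProjectiveSpecialLinearGroup (Fin 3) F := QuotientGroup.mk A
  have hx4 : x ^ (2 ^ 2) = 1 := by
    show (QuotientGroup.mk (A ^ 4) : ProjectiveSpecialLinearGroup (Fin 3) F) = 1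
    rw [hA4]; rfl
  have hx2 : ¬ x ^ (2 ^ 1) = 1 := by
    intro h
    have h3 : A ^ 2 ∈ Subgroup.center (SpecialLinearGroup (Fin 3) F) := (QuotientGroup.eq_one_iff _).1 h
    rw [Matrix.SpecialLinearGroup.mem_center_iff] at h3
    obtain ⟨r, -, hr⟩ := h3
    have h4 := congrFun (congrFun hr 0) 2
    rw [show ((A ^ 2 : SpecialLinearGroup (Fin 3) F) : Matrix (Fin 3) (Fin 3) F) = (A ^ 2).1 from rfl, hA2] at h4
    simp [Matrix.scalar_apply] at h4
  have hx : orderOf x = 2 ^ 2 := orderOf_eq_prime_pow (p := 2) (n := 1) hx2 hx4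
  exact xcond_of_card (n := 2) hx (by rw [hcard]; norm_num)

end Cfsg.Agent.H174.K547
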